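import Mathlib
import Cfsg.Agent.Base

/-!
A field of characteristic zero containing a square root of five and a non-trivial root of unity of
order prime to ten has level at most two (helper82).
-/

set_option autoImplicit false

namespace H82

open Finset

universe u

/-- Thue's lemma. -/
theorem thue {l : ℕ} (hl : l.Prime) (r : ZMod l) :
    ∃ x y : ℤ, (x : ZMod l) = r * y ∧ ¬ (x = 0 ∧ y = 0) ∧ x * x < l ∧ y * y < l := by
  have := Fact.mk hl
  set m := Nat.sqrt l with hm
  have h1 : m * m < l := by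
    refine lt_of_le_of_ne (Nat.sqrt_le l) fun e => ?_
    rcases (Nat.dvd_prime hl).1 ⟨m, e.symm⟩ with h | h
    · rw [h] at e; exact hl.one_lt.ne e
    · rw [h] at e; have := hl.one_lt; nlinarith
  have h2 : l < (m + 1) * (m + 1) := Nat.lt_succ_sqrt l
  obtain ⟨⟨a, b⟩, hab, ⟨c, d⟩, hcd, hne, he⟩ := exists_ne_map_eq_of_card_lt_of_maps_to
    (s := range (m + 1) ×ˢ range (m + 1)) (t := (univ : Finset (ZMod l)))
    (by simpa using h2) (f := fun p : ℕ × ℕ => (p.1 : ZMod l) - r * p.2) (fun _ _ => mem_univ _)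
  simp only [mem_product, mem_range] at hab hcd he
  have key : ∀ u v : ℕ, u < m + 1 → v < m + 1 → ((u : ℤ) - v) * ((u : ℤ) - v) < l := by
    intro u v hu hv
    have : ((m : ℤ)) * m < l := by exact_mod_cast h1
    have h3 : (u : ℤ) - v ≤ m := by omega
    have h4 : -(m : ℤ) ≤ (u : ℤ) - v := by omega
    nlinarith
  refine ⟨(a : ℤ) - c, (b : ℤ) - d, ?_, ?_, key _ _ hab.1 hcd.1, key _ _ hab.2 hcd.2⟩
  · push_cast
    linear_combination he
  · rintro ⟨h3, h4⟩
    exact hne (Prod.ext (by simp only; omega) (by simp only; omega))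

theorem isSquare_neg_five {l : ℕ} (hl : l.Prime) (h : l % 20 = 3) : IsSquare (-5 : ZMod l) := by
  have := Fact.mk hl
  have := Fact.mk Nat.prime_five
  have h5 : ((-5 : ℤ) : ZMod l) ≠ 0 := by
    rw [Ne, ZMod.intCast_zmod_eq_zero_iff_dvd, Int.dvd_neg]
    intro hd
    have : l ∣ 5 := by exact_mod_cast hd
    have := Nat.le_of_dvd (by norm_num) this
    interval_cases l <;> simp_all
  have h1 : legendreSym l (-5) = 1 := by
    have e1 : legendreSym l (-1) = -1 := by
      rw [legendreSym.at_neg_one (by omega), ZMod.χ₄_nat_three_mod_four (by omega)]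
    have e2 : legendreSym l 5 = -1 := by
      have := legendreSym.quadratic_reciprocity_one_mod_four (p := 5) (q := l) (by norm_num)
        (by omega)
      rw [Nat.cast_ofNat] at this
      rw [this, legendreSym.mod, show (l : ℤ) % (5 : ℕ) = 3 by omega]
      norm_num
    rw [show (-5 : ℤ) = -1 * 5 by norm_num, legendreSym.mul, e1, e2]
    norm_num
  simpa using (legendreSym.eq_one_iff l h5).1 h1

theorem exists_sq_add_five_sq {l : ℕ} (hl : l.Prime) (h : l % 20 = 3) :
    ∃ x y : ℚ, x * x + 5 * (y * y) = 2 * l := by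
  obtain ⟨r, hr⟩ := isSquare_neg_five hl h
  obtain ⟨x, y, h1, h2, h3, h4⟩ := thue hl r
  have h5 : (l : ℤ) ∣ x * x + 5 * (y * y) := by
    rw [← ZMod.intCast_zmod_eq_zero_iff_dvd]
    push_cast
    rw [h1]
    linear_combination (-(y : ZMod l) * y) * hr
  obtain ⟨k, hk⟩ := h5
  have hl0 : (0 : ℤ) < l := by exact_mod_cast hl.pos
  have hpos : 0 < x * x + 5 * (y * y) := by
    by_contra hc
    exact h2 ⟨by nlinarith [mul_self_nonneg x, mul_self_nonneg y],
      by nlinarith [mul_self_nonneg x, mul_self_nonneg y]⟩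
  have k1 : 0 < k := by nlinarith
  have k2 : k < 6 := by nlinarith
  have hl' : (l : ℤ) % 20 = 3 := by omega
  have sq5 : ∀ z : ℤ, z * z % 5 = 0 ∨ z * z % 5 = 1 ∨ z * z % 5 = 4 := by
    intro z
    have : z % 5 = 0 ∨ z % 5 = 1 ∨ z % 5 = 2 ∨ z % 5 = 3 ∨ z % 5 = 4 := by omega
    rcases this with e | e | e | e | e <;> simp [Int.mul_emod, e]
  interval_cases k
  · have := sq5 x; omega
  · exact ⟨x, y, by exact_mod_cast hk.trans (mul_comm _ _)⟩
  · refine ⟨(x - 5 * y) / 3, (x + y) / 3, ?_⟩
    have : (x : ℚ) * x + 5 * (y * y) = l * 3 := by exact_mod_cast hk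
    linear_combination (2 / 3 : ℚ) * this
  · have := sq5 x; omega
  · have h6 : (5 : ℤ) ∣ x * x := by omega
    obtain ⟨z, rfl⟩ : (5 : ℤ) ∣ x := by
      rcases (Int.prime_iff_natAbs_prime.2 (by norm_num) : Prime (5 : ℤ)).dvd_or_dvd h6 with e | e <;>
        exact e
    have := sq5 y
    have h7 : 5 * (z * z) + y * y = l := by linarith
    omega

/-- Gauss' identity for the value of a cyclotomic polynomial of prime index `3 mod 4`. -/
theorem gauss_identity {K : Type u} [Field K] [CharZero K] {l : ℕ} (hl : l.Prime) (h : l % 4 = 3)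
    (x : K) : ∃ u w : K, (l * (u * u) + w * w) * (x - 1) = 4 * l * (x ^ l - 1) := by
  classical
  have := Fact.mk hl
  obtain ⟨L, _, _, _⟩ : ∃ (L : Type u) (_ : Field L) (_ : Algebra K L),
      IsCyclotomicExtension {l} K L := ⟨CyclotomicField l K, inferInstance, inferInstance,
        inferInstance⟩
  have : CharZero L := charZero_of_injective_algebraMap (algebraMap K L).injective
  have : IsGalois K L := IsCyclotomicExtension.isGalois {l} K L
  have : FiniteDimensional K L := IsCyclotomicExtension.finiteDimensional {l} K L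
  have hω := IsCyclotomicExtension.zeta_spec l K L
  set ω := IsCyclotomicExtension.zeta l K L
  let ψ : AddChar (ZMod l) L := AddChar.zmodChar l hω.pow_eq_one
  have hψ : ψ.IsPrimitive := AddChar.zmodChar_primitive_of_primitive_root l hω
  have hchar : ringChar (ZMod l) ≠ 2 := by rw [ZMod.ringChar_zmod_n]; omega
  let χ₀ := quadraticChar (ZMod l)
  let χ : MulChar (ZMod l) L := χ₀.ringHomComp (Int.castRingHom L)
  have hχ : ∀ a, χ a = (χ₀ a : L) := fun a => rfl
  have hg : gaussSum χ ψ ^ 2 = -l := by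
    rw [gaussSum_sq ((MulChar.ringHomComp_ne_one_iff (RingHom.injective_int _)).2
      (quadraticChar_ne_one hchar)) ((quadraticChar_isQuadratic _).comp _) hψ, hχ,
      quadraticChar_neg_one hchar, ZMod.card, ZMod.χ₄_nat_three_mod_four h]
    simp
  let P : ℤ → L := fun e => ∏ k : ZMod l with χ₀ k = e, (algebraMap K L x - ψ k)
  have hσ : ∀ σ : Gal(L/K), ∃ e : ℤ, (e = 1 ∨ e = -1) ∧ σ (gaussSum χ ψ) = e * gaussSum χ ψ ∧
      ∀ d, σ (P d) = P (e * d) := by
    intro σ
    have h1 : IsPrimitiveRoot (σ ω) l := hω.map_of_injective σ.injective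
    obtain ⟨a, -, ha⟩ := hω.eq_pow_of_pow_eq_one h1.pow_eq_one
    have h2 : ∀ k, σ (ψ k) = ψ (a * k) := by
      intro k
      rw [mul_comm, ← nsmul_eq_mul', AddChar.map_nsmul_eq_pow]
      simp only [ψ, AddChar.zmodChar_apply, map_pow, ← ha, ← pow_mul, mul_comm]
    have ha0 : (a : ZMod l) ≠ 0 := by
      intro e
      have := h2 1
      rw [e, zero_mul, AddChar.map_zero_eq_one, ← map_one σ, σ.injective.eq_iff] at this
      exact one_ne_zero ((hψ.zmod_char_eq_one_iff l 1).1 this)
    have h3 := quadraticChar_dichotomy ha0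
    have h4 : χ₀ a * χ₀ a = 1 := by rcases h3 with e | e <;> simp [χ₀, e]
    refine ⟨χ₀ a, h3, ?_, fun d => ?_⟩
    · have h5 := gaussSum_mulShift χ ψ (Units.mk0 _ ha0)
      have h6 : σ (gaussSum χ ψ) = gaussSum χ (ψ.mulShift (a : ZMod l)) := by
        simp only [gaussSum, map_sum, map_mul, h2, hχ, map_intCast, AddChar.mulShift_apply]
      rw [h6, ← h5, ← mul_assoc, Units.val_mk0, hχ, ← Int.cast_mul, h4]
      simp
    · simp only [P, map_prod, map_sub, AlgEquiv.commutes, h2]
      refine prod_nbij' (fun k => a * k) (fun k => (a : ZMod l)⁻¹ * k) ?_ ?_ ?_ ?_ ?_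
      · intro k hk
        simp only [mem_filter, mem_univ, true_and] at hk ⊢
        rw [map_mul, hk]
      · intro k hk
        simp only [mem_filter, mem_univ, true_and] at hk ⊢
        have : χ₀ a * χ₀ ((a : ZMod l)⁻¹ * k) = χ₀ a * d := by
          rw [← map_mul, mul_inv_cancel_left₀ ha0, hk]
        exact mul_left_cancel₀ (left_ne_zero_of_mul_eq_one h4) this
      · intro k _; exact inv_mul_cancel_left₀ ha0 k
      · intro k _; exact mul_inv_cancel_left₀ ha0 k
      · intro k _; rfl
  obtain ⟨u, hu⟩ := (IsGalois.mem_range_algebraMap_iff_fixed (F := K) (P 1 + P (-1))).2 (by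
    intro σ
    obtain ⟨e, rfl | rfl, -, h2⟩ := hσ σ <;> simp [h2, add_comm])
  obtain ⟨w, hw⟩ := (IsGalois.mem_range_algebraMap_iff_fixed (F := K)
      (gaussSum χ ψ * (P 1 - P (-1)))).2 (by
    intro σ
    obtain ⟨e, rfl | rfl, h1, h2⟩ := hσ σ
    · simp [h1, h2]
    · simp only [map_mul, map_sub, h1, h2]; simp only [mul_one, mul_neg, neg_neg]; push_cast; ring)
  have hP : P 1 * P (-1) * (algebraMap K L x - 1) = algebraMap K L x ^ l - 1 := by
    have h1 : ∏ k : ZMod l, (algebraMap K L x - ψ k) = algebraMap K L x ^ l - 1 := by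
      have := congrArg (Polynomial.eval (algebraMap K L x))
        (X_pow_sub_C_eq_prod hω hl.pos (one_pow l))
      simp only [Polynomial.eval_sub, Polynomial.eval_pow, Polynomial.eval_X, Polynomial.eval_C,
        Polynomial.eval_prod, mul_one] at this
      rw [this]
      refine prod_nbij' (fun k => k.val) (fun i => (i : ZMod l)) ?_ ?_ ?_ ?_ ?_
      · intro k _; exact mem_range.2 (ZMod.val_lt k)
      · intro k _; exact mem_univ _
      · intro k _; exact ZMod.natCast_zmod_val k
      · intro k hk; exact ZMod.val_cast_of_lt (mem_range.1 hk)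
      · intro k _; rfl
    have h2 : P 0 = algebraMap K L x - 1 := by
      have : (univ.filter fun k : ZMod l => χ₀ k = 0) = {0} := by
        ext k; simp only [χ₀, mem_filter, mem_univ, true_and, quadraticChar_eq_zero_iff,
          mem_singleton]
      simp only [P, this, prod_singleton, AddChar.map_zero_eq_one]
    rw [← h1, ← h2, ← prod_fiberwise_of_maps_to (s := univ) (t := ({1, -1, 0} : Finset ℤ))
      (g := χ₀) (fun k _ => by
        rcases quadraticChar_isQuadratic (ZMod l) k with e | e | e <;> simp [χ₀, e])]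
    rw [prod_insert (by decide), prod_insert (by decide), prod_singleton, mul_assoc]
  refine ⟨u, w, (algebraMap K L).injective ?_⟩
  simp only [map_mul, map_add, map_sub, map_pow, map_natCast, map_one, map_ofNat, hu, hw]
  linear_combination (P 1 - P (-1)) ^ 2 * (algebraMap K L x - 1) * hg + 4 * l * hP

/-- The level of a field with `√5` and a root of unity of order prime to ten. -/
theorem exists_sq_add_sq_add_one_of_root {K : Type*} [Field K] [CharZero K] {s ζ : K}
    (hs : s * s = 5) {q : ℕ} (hq : q.Coprime 10) (hζ : ζ ^ q = 1) (hζ1 : ζ ≠ 1) :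
    ∃ a b c : K, a * a + b * b + c * c = 0 ∧ ¬ (a = 0 ∧ b = 0) := by
  have hq0 : q ≠ 0 := by rintro rfl; simp at hq
  have hq20 : (20 : ℕ).Coprime q := by
    have := Nat.Coprime.pow_right 2 hq
    exact (Nat.Coprime.coprime_dvd_right (by norm_num : 20 ∣ 10 ^ 2) this).symm
  obtain ⟨a, ha1, ha2⟩ := Nat.chineseRemainder hq20 3 (q - 1)
  have ha : a.Coprime (20 * q) := by
    refine Nat.Coprime.mul_right ?_ ?_
    · rw [Nat.Coprime, ha1.gcd_eq]; decide
    · rw [Nat.Coprime, ha2.gcd_eq]
      obtain ⟨q, rfl⟩ := Nat.exists_eq_succ_of_ne_zero hq0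
      simp
  obtain ⟨l, -, hl, hla⟩ := Nat.forall_exists_prime_gt_and_modEq 0 (by omega) ha
  have h20 : l % 20 = 3 := ((hla.of_mul_right q).trans ha1 :)
  have hlq : ζ ^ l = ζ ^ (q - 1) := by
    rw [pow_eq_pow_mod l hζ, pow_eq_pow_mod (q - 1) hζ, ((hla.of_mul_left 20).trans ha2 :)]
  obtain ⟨k, rfl⟩ : Odd q := Nat.coprime_two_right.1
    (Nat.Coprime.coprime_dvd_right (by norm_num : 2 ∣ 10) hq)
  obtain ⟨x, y, hxy⟩ := exists_sq_add_five_sq hl h20
  obtain ⟨u, w, huw⟩ := gauss_identity hl (by omega) ζ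
  have hxy' : (x : K) * x + 5 * (y * y) = 2 * l := by exact_mod_cast hxy
  set η := ζ ^ k
  have hη : η * η * ζ = 1 := by rw [← hζ]; ring
  have h1 : (l : K) * (u * u) + w * w = -4 * l * (η * η) := by
    apply mul_right_cancel₀ (sub_ne_zero.2 hζ1)
    rw [huw, hlq, Nat.add_sub_cancel, two_mul, pow_add]
    linear_combination 4 * l * hη
  set b := (x - y * s) / 2
  set c := (x + y * s) / 2
  have hbc : b * b + c * c = l := by
    simp only [b, c]
    linear_combination (1 / 2 : K) * hxy' + (y * y / 2) * hs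
  refine ⟨b * u - 2 * c * η, c * u + 2 * b * η, w, ?_, fun ⟨e1, e2⟩ => ?_⟩
  · linear_combination (u * u + 4 * η * η) * hbc + h1
  · have : (l : K) * η = 0 := by
      linear_combination (b / 2) * e2 - (c / 2) * e1 - η * hbc
    rcases mul_eq_zero.1 this with e | e
    · exact hl.ne_zero (by exact_mod_cast e)
    · rw [e] at hη; simp at hη

end H82
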