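import Mathlib
import Cfsg.Agent.Base
import Cfsg.Agent.Lib.FrobC.Perfect
import Cfsg.Agent.Lib.FGS.TIHall
import Cfsg.Agent.Lib.FGS.ZAct

/-!
TI-subgroups acting on coprime solvable subgroups (helper82).
-/

set_option autoImplicit false
set_option linter.unusedSectionVars false

namespace H82

open Cfsg Subgroup
open scoped commutatorElement

variable {G : Type*} [Group G] [Finite G]

/-- If `H` acts coprimely and non-trivially on the solvable group `P` and every non-identity
element of `H` has the same fixed points as `H`, then `H` is a Frobenius complement. -/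
theorem intFPF_of_ti {H P : Subgroup G} (hP : Group.IsSolvable P)
    (hHP : H ≤ normalizer (P : Set G)) (hc : (Nat.card H).Coprime (Nat.card P))
    (hfix : ∀ x ∈ H, x ≠ 1 → P ⊓ centralizer {x} ≤ centralizer (H : Set G))
    (hne : ¬ P ≤ centralizer (H : Set G)) : IntFPF H := by
  set K : Subgroup G := ⁅P, H⁆ with hK
  have hKP : K ≤ P := H2.commutator_le_of_le_normalizer hHP
  have hHK : H ≤ normalizer (K : Set G) := normalizer_commutator_ge_right _ _
  have hcK := H2.coprime_of_le_right hc hKP
  have hKs : Group.IsSolvable K := H2.isSolvable_of_le hKP hP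
  have hKne : K ≠ ⊥ := fun h => hne (commutator_eq_bot_iff_le_centralizer.1 h)
  have hlt : ⁅K, K⁆ < K := H1.commutator_self_lt_of_isSolvable hKs hKne
  have hHN : H ≤ normalizer ((⁅K, K⁆ : Subgroup G) : Set G) := H2.le_normalizer_commutator hHK hHK
  have hKN : K ≤ normalizer ((⁅K, K⁆ : Subgroup G) : Set G) := normalizer_commutator_ge_left _ _
  have : ((⁅K, K⁆ : Subgroup G).subgroupOf K).Normal := normal_subgroupOf_of_le_normalizer hKN
  have hC : K ⊓ centralizer (H : Set G) ≤ ⁅K, K⁆ :=
    H2.inf_centralizer_le_commutator hHK hcK (H2.commutator_commutator_eq hHP hc).ge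
  have : Nontrivial (K ⧸ (⁅K, K⁆ : Subgroup G).subgroupOf K) := by
    obtain ⟨x, hx, hx'⟩ := SetLike.exists_of_lt hlt
    exact ⟨⟨((⟨x, hx⟩ : K) : K ⧸ (⁅K, K⁆ : Subgroup G).subgroupOf K), 1,
      fun h => hx' (mem_subgroupOf.1 ((QuotientGroup.eq_one_iff (⟨x, hx⟩ : K)).1 h))⟩⟩
  refine FPF.intFPF_of_isSolvable (φ := H2.sectionAut hHK hHN) ?_ inferInstance
  intro a ha k hk
  obtain ⟨k, rfl⟩ := QuotientGroup.mk_surjective k
  rw [H2.sectionAut_mk_eq_iff] at hk
  have ha' : (a : G) ≠ 1 := fun h => ha (Subtype.ext h)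
  have hza : zpowers (a : G) ≤ H := zpowers_le.2 a.2
  obtain ⟨n, hn, hkn⟩ := H2.exists_mul_mem_centralizer (A := zpowers (a : G)) (N := ⁅K, K⁆)
    (hza.trans hHN) (H2.coprime_of_le_right (hcK.coprime_dvd_left (card_dvd_of_le hza)) hlt.le)
    (Or.inl (H2.isSolvable_zpowers _)) (g := k) (by
      intro b hb
      have h1 : H2.sectionAut hHK hHN ⟨b, hza hb⟩ (k : K ⧸ _) = k := by
        obtain ⟨i, rfl⟩ := hb
        have h2 := (H2.sectionAut_mk_eq_iff hHK hHN a k).2 hk
        have : (⟨(a : G) ^ i, hza ⟨i, rfl⟩⟩ : H) = a ^ i := rfl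
        rw [this, map_zpow]
        have h3 : H2.sectionAut hHK hHN a ∈ MulAction.stabilizer
          (MulAut (K ⧸ (⁅K, K⁆ : Subgroup G).subgroupOf K))
          (k : K ⧸ (⁅K, K⁆ : Subgroup G).subgroupOf K) := h2
        exact zpow_mem h3 i
      have := (H2.sectionAut_mk_eq_iff hHK hHN ⟨b, hza hb⟩ k).1 h1
      simpa [commutatorElement_def] using this)
  have h3 : (k : G) * n ∈ K := K.mul_mem k.2 (hlt.le hn)
  have h4 : (k : G) * n ∈ ⁅K, K⁆ := hC ⟨h3, hfix a a.2 ha' ⟨hKP h3,
    centralizer_le (Set.singleton_subset_iff.2 (mem_zpowers _)) hkn⟩⟩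
  rw [QuotientGroup.eq_one_iff, mem_subgroupOf]
  simpa using mul_mem h4 (inv_mem hn)

/-- A coprime subgroup normalised by `H` meets the normaliser of `H` in the centraliser. -/
theorem inf_normalizer_le_centralizer {H P : Subgroup G} (hHP : H ≤ normalizer (P : Set G))
    (hc : (Nat.card H).Coprime (Nat.card P)) :
    P ⊓ normalizer (H : Set G) ≤ centralizer (H : Set G) := by
  rw [← commutator_eq_bot_iff_le_centralizer, eq_bot_iff, ← H2.inf_eq_bot_of_coprime_card hc]
  refine le_inf ?_ ?_
  · rw [commutator_comm]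
    exact H2.commutator_le_of_le_normalizer inf_le_right
  · exact (commutator_mono inf_le_left le_rfl).trans (H2.commutator_le_of_le_normalizer hHP)

theorem intFPF_of_isTI {H P : Subgroup G} (hTI : IsTISubset (H : Set G)) (hP : Group.IsSolvable P)
    (hHP : H ≤ normalizer (P : Set G)) (hc : (Nat.card H).Coprime (Nat.card P))
    (hne : ¬ P ≤ centralizer (H : Set G)) : IntFPF H :=
  intFPF_of_ti hP hHP hc (fun _ hx h1 => (inf_le_inf_left _ (H80.ti_centralizer_le hTI hx h1)).trans
    (inf_normalizer_le_centralizer hHP hc)) hne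

theorem isSolvable_of_commutator {N : Subgroup G} (h : Group.IsSolvable (⁅N, N⁆ : Subgroup G)) :
    Group.IsSolvable N := by
  refine H1.isSolvable_of_normal_of_quotient (_root_.commutator N) ?_
    (inferInstance : Group.IsSolvable (Abelianization N))
  rw [← map_subtype_commutator] at h
  exact H1.isSolvable_of_map_injective N.subtype_injective h

/-- The second derived group of the normaliser of a Z-group centralises it. -/
theorem commutator_commutator_le_centralizer {H N : Subgroup G} (hH : IsZGroup H)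
    (hN : N ≤ normalizer (H : Set G)) :
    ⁅⁅N, N⁆, ⁅N, N⁆⁆ ≤ centralizer (H : Set G) := by
  have h1 : ⁅N, N⁆ ≤ centralizer ((⁅H, N⁆ : Subgroup G) : Set G) :=
    H80.commutator_le_centralizer_of_isCyclic (H80.zact_isCyclic hH hN)
      (normalizer_commutator_ge_right _ _) (normalizer_commutator_ge_right _ _)
  have h2 : ⁅⁅H, ⁅N, N⁆⁆, ⁅N, N⁆⁆ = ⊥ := by
    rw [eq_bot_iff]
    refine (commutator_mono (commutator_mono le_rfl (commutator_le_self N)) le_rfl).trans ?_
    rw [commutator_comm, commutator_eq_bot_iff_le_centralizer.2 h1]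
  rw [← commutator_eq_bot_iff_le_centralizer]
  apply commutator_commutator_eq_bot_of_rotate
  · rw [commutator_comm ⁅N, N⁆ H, h2]
  · exact h2

/-- Schur: the derived group of the centraliser of a subgroup that is Hall in its normaliser. -/
theorem coprime_commutator_centralizer {H : Subgroup G}
    (hHall : (Nat.card H).Coprime (H.relIndex (normalizer (H : Set G)))) :
    (Nat.card (⁅centralizer (H : Set G), centralizer (H : Set G)⁆ : Subgroup G)).Coprime
      (Nat.card H) := by
  set C := centralizer (H : Set G)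
  rw [← map_subtype_commutator, card_map_of_injective C.subtype_injective]
  refine Nat.Coprime.coprime_dvd_left (card_commutator_dvd_index_center_pow C)
    (Nat.Coprime.pow_left _ (hHall.symm.coprime_dvd_left ?_))
  have h1 : H.subgroupOf C ≤ center C := fun x hx =>
    mem_center_iff.2 fun y => Subtype.ext (y.2 x hx).symm
  refine (index_dvd_of_le h1).trans ?_
  have h2 : C ≤ normalizer (H : Set G) := centralizer_le_normalizer _
  change H.relIndex C ∣ _
  rw [← relIndex_subgroupOf h2]
  exact relIndex_dvd_index_of_normal _ _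

end H82
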